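import Groth.Agent.Sga7.H810.HcNat
import Groth.Agent.Sga7.H762.MidFree

/-!
# Unipotent action of `ℓ`-power order on `H^n(Y, ℤ/ℓ^ν)`

If `e : Y ⟶ Y` acts trivially on `H^n(Y, ℤ/ℓ)`, then every class in `H^n(Y, ℤ/ℓ^ν)` is fixed by an
iterate `e^{ℓ^M}`.
-/

set_option autoImplicit false
universe u
open CategoryTheory CategoryTheory.Limits CategoryTheory.Abelian AlgebraicGeometry Opposite

namespace Groth.Agent.Sga7.H810.Unip

open Groth.Agent.Sga7.H744.CohConst Groth.Agent.Sga7.H762.HConst Groth.Agent.Sga7.H762.MidFree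

section Alg

/-- If `T x = x + i y` and `i S = T i`, then `T^k x = x + i (∑_{j<k} S^j y)`. -/
theorem iterate_add {A B : Type*} [AddCommGroup A] [AddCommGroup B] (T : B →+ B) (S : A →+ A)
    (i : A →+ B) (hi : ∀ a, T (i a) = i (S a)) (x : B) (y : A) (h : T x = x + i y) (k : ℕ) :
    T^[k] x = x + i (∑ j ∈ Finset.range k, S^[j] y) := by
  induction k with
  | zero => simp
  | succ k ih =>
    rw [Function.iterate_succ_apply', ih, map_add, h, hi, add_assoc, ← map_add,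
      Finset.sum_range_succ', map_sum]
    congr 2
    rw [add_comm]
    congr 1
    refine Finset.sum_congr rfl fun j _ => ?_
    rw [Function.iterate_succ_apply']

/-- Sums over a multiple of the period. -/
theorem sum_iterate_mul {A : Type*} [AddCommGroup A] (S : A → A) (y : A) (a b : ℕ)
    (h : S^[a] y = y) :
    ∑ j ∈ Finset.range (a * b), S^[j] y = b • ∑ j ∈ Finset.range a, S^[j] y := by
  have hp : ∀ b : ℕ, S^[a * b] y = y := by
    intro b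
    induction b with
    | zero => simp
    | succ b ih => rw [Nat.mul_succ, Function.iterate_add_apply, h, ih]
  induction b with
  | zero => simp
  | succ b ih =>
    rw [Nat.mul_succ, Finset.sum_range_add, ih, succ_nsmul]
    congr 1
    refine Finset.sum_congr rfl fun j _ => ?_
    rw [add_comm, Function.iterate_add_apply, hp]

end Alg

theorem exists_iterate_fix {Y : Scheme.{u}} (e : Y ⟶ Y) (ℓ : ℕ) (hℓ : 0 < ℓ) (n : ℕ)
    (h : Hc e (ZMod ℓ) n = AddMonoidHom.id _) (ν : ℕ) :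
    ∀ x : EtCoh.H Y (EtCoh.const Y (ZMod (ℓ ^ ν))) n,
      ∃ M : ℕ, (Hc e (ZMod (ℓ ^ ν)) n)^[ℓ ^ M] x = x := by
  have hk : ∀ (ν : ℕ) (x : EtCoh.H Y (EtCoh.const Y (ZMod (ℓ ^ ν))) n), (ℓ ^ ν) • x = 0 :=
    fun ν x => Groth.Agent.Sga5.HcConst.H_nsmul_eq_zero _ _
      (Groth.Agent.Sga5.HcConst.killedBy_const Y _ _ (Groth.Agent.Sga5.HcConst.zmod_nsmul _)) _ x
  induction ν with
  | zero =>
    intro x
    refine ⟨0, ?_⟩
    have h1 : ∀ z : EtCoh.H Y (EtCoh.const Y (ZMod (ℓ ^ 0))) n, z = 0 := fun z =>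
      (one_nsmul z).symm.trans ((congrArg (fun k : ℕ => k • z) (pow_zero ℓ).symm).trans (hk 0 z))
    rw [h1 x, h1 ((Hc e (ZMod (ℓ ^ 0)) n)^[ℓ ^ 0] 0)]
  | succ ν ih =>
    intro x
    have hN : ℓ ^ (ν + 1) = ℓ ^ ν * ℓ := pow_succ _ _
    have hd : ℓ ∣ ℓ ^ (ν + 1) := ⟨ℓ ^ ν, hN.trans (mul_comm _ _)⟩
    let T := Hc e (ZMod (ℓ ^ (ν + 1))) n
    let S := Hc e (ZMod (ℓ ^ ν)) n
    let i := Hmap Y n (inc (ℓ ^ (ν + 1)) (ℓ ^ ν) ℓ hN)
    have h1 : Hmap Y n (red (ℓ ^ (ν + 1)) ℓ hd) (T x - x) = 0 := by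
      rw [map_sub, ← HcNat.Hc_Hmap, h, AddMonoidHom.id_apply, sub_self]
    obtain ⟨y, hy⟩ := exact_mid _ _ (inc_injective (ℓ ^ (ν + 1)) (ℓ ^ ν) ℓ hN
      (pow_pos hℓ _)) (red_surjective (ℓ ^ (ν + 1)) ℓ _)
      (red_eq_zero_iff (ℓ ^ (ν + 1)) (ℓ ^ ν) ℓ hN) (T x - x) h1
    obtain ⟨M, hM⟩ := ih y
    refine ⟨M + ν, ?_⟩
    have h2 := iterate_add T S i (fun a => HcNat.Hc_Hmap e _ n a) x y
      (by rw [show i y = T x - x from hy]; abel) (ℓ ^ (M + ν))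
    rw [h2, pow_add ℓ M ν, sum_iterate_mul _ _ _ _ hM, hk, map_zero, add_zero]

end Groth.Agent.Sga7.H810.Unip
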