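import Groth.Agent.Sga7.H810.FieldH
import Groth.Agent.Sga7.H810.Unip
import Groth.Agent.Vancyc.H684.Tame

/-!
# Constant coefficients: the groups `HE` and the maps `Hc`
-/

set_option autoImplicit false
universe u
open CategoryTheory CategoryTheory.Limits CategoryTheory.Abelian AlgebraicGeometry Opposite

namespace Groth.Agent.Sga7.H810.FieldConst

open Groth.Agent.Sga7.H744.CohConst Groth.Agent.EtpbcB.HRel Groth.Agent.EtpbcB.HLim FieldH

variable {K : Type u} [Field K] {C : Scheme.{u}} (f : C ⟶ Spec (CommRingCat.of K))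
  (M : Type) [AddCommGroup M] (q : ℕ)

/-- The comparison `H^q(C_E, M_C|) → H^q(C_E, M)`. -/
noncomputable def kap (E : Type u) [CommRing E] [Algebra K E] (x : HE f (EtCoh.const C M) q E) :
    EtCoh.H (pullback f (str K E)) (EtCoh.const _ M) q :=
  x.comp (Ext.mk₀ (EtCore.pullConst (toC f E) M).hom) (add_zero q)

theorem kap_hm {E E' : Type u} [CommRing E] [Algebra K E] [CommRing E'] [Algebra K E']
    (φ : E →ₐ[K] E') (x : HE f (EtCoh.const C M) q E) :
    Hc (bm f φ) M q (kap f M q E x) = kap f M q E' (hm f _ q φ x) :=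
  HcNat.Hc_HpullVia (bm f φ) (toC f E) (toC f E') (bm_fst f φ) M q x

theorem kap_injective (E : Type u) [CommRing E] [Algebra K E] :
    Function.Injective (kap f M q E) := fun _ _ h => comp_mk₀_inj _ h

theorem kap_surjective (E : Type u) [CommRing E] [Algebra K E] :
    Function.Surjective (kap f M q E) := fun x =>
  ⟨x.comp (Ext.mk₀ (inv (EtCore.pullConst (toC f E) M).hom)) (add_zero q),
    comp_mk₀_inv_comp _ x⟩

theorem twistAut_eq (Ω : Type u) [Field Ω] [Algebra K Ω] (σ : Ω ≃ₐ[K] Ω) :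
    SGA7.twistAut Ω f σ = bm f (σ : Ω →ₐ[K] Ω) := rfl

theorem iterate_hm {E : Type u} [CommRing E] [Algebra K E] (φ : E →ₐ[K] E)
    (x : HE f (EtCoh.const C M) q E) (k : ℕ) :
    (Hc (bm f φ) M q)^[k] (kap f M q E x) = kap f M q E ((hm f _ q φ)^[k] x) := by
  induction k generalizing x with
  | zero => rfl
  | succ k ih => rw [Function.iterate_succ_apply, Function.iterate_succ_apply, kap_hm, ih]

/-- The class is fixed by a power of `σ`. -/
theorem exists_iterate_fix (ℓ : ℕ) (hℓ : 0 < ℓ) {E : Type u} [CommRing E] [Algebra K E]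
    (φ : E →ₐ[K] E) (h : Hc (bm f φ) (ZMod ℓ) q = AddMonoidHom.id _) (ν : ℕ)
    (x : HE f (EtCoh.const C (ZMod (ℓ ^ ν))) q E) :
    ∃ k : ℕ, (hm f _ q φ)^[ℓ ^ k] x = x := by
  obtain ⟨k, hk⟩ := Unip.exists_iterate_fix (bm f φ) ℓ hℓ q h ν (kap f _ q E x)
  refine ⟨k, kap_injective f _ q E ?_⟩
  rw [← iterate_hm]
  exact hk

theorem nsmul_eq_zero (ℓ ν : ℕ) (E : Type u) [CommRing E] [Algebra K E]
    (x : HE f (EtCoh.const C (ZMod (ℓ ^ ν))) q E) : (ℓ ^ ν) • x = 0 :=
  Groth.Agent.Vancyc.H684.Tame.nsmul_ext_eq_zero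
    (Groth.Agent.Vancyc.H684.Tame.nsmul_id_pull (toC f E)
      (Groth.Agent.Vancyc.H684.Tame.nsmul_id_of_killedBy
        (Groth.Agent.Sga5.HcConst.killedBy_const C _ _ (Groth.Agent.Sga5.HcConst.zmod_nsmul _))))
    (A := EtCoh.const _ ℤ) (q := q) x

end Groth.Agent.Sga7.H810.FieldConst
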