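import Groth.Agent.Sga7.H810.FieldConst
import Groth.Agent.Sga7.H810.FieldLim
import Groth.Agent.Sga7.H481.Tame

/-!
# Classes fixed by the automorphisms which fix all `ℓ`-power roots of a uniformizer
-/

set_option autoImplicit false
universe u
open CategoryTheory CategoryTheory.Limits CategoryTheory.Abelian AlgebraicGeometry Opposite

namespace Groth.Agent.Sga7.H810.Fix

open FieldH Groth.Agent.Sga7.H744.CohConst

section

variable {K : Type u} [Field K] {C : Scheme.{u}} (f : C ⟶ Spec (CommRingCat.of K))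
  (F : EtCoh.Ab C) (q : ℕ) {Ω : Type u} [Field Ω] [Algebra K Ω]

theorem hm_pow (σ : Ω ≃ₐ[K] Ω) (k : ℕ) (x : HE f F q Ω) :
    hm f F q ((σ ^ k : Ω ≃ₐ[K] Ω) : Ω →ₐ[K] Ω) x = (hm f F q (σ : Ω →ₐ[K] Ω))^[k] x := by
  induction k with
  | zero => exact hm_id f F q Ω x
  | succ k ih =>
    rw [Function.iterate_succ_apply', ← ih, hm_comp]
    congr 2
    rw [pow_succ']
    rfl

/-- Continuity: an automorphism fixing `L` fixes the classes coming from `L`. -/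
theorem hm_fix (L : IntermediateField K Ω) (y : HE f F q L) (σ : Ω ≃ₐ[K] Ω)
    (hσ : σ ∈ L.fixingSubgroup) :
    hm f F q (σ : Ω →ₐ[K] Ω) (hm f F q L.val y) = hm f F q L.val y := by
  rw [hm_comp]
  congr 2
  ext z
  exact (L.mem_fixingSubgroup_iff σ).1 hσ _ z.2

end

variable (R K Ω : Type u) [CommRing R] [IsDomain R] [IsDiscreteValuationRing R]
  [Field K] [Algebra R K] [IsFractionRing R K] [Field Ω] [Algebra K Ω] [Algebra R Ω]
  [IsScalarTower R K Ω] [IsGalois K Ω] [IsSepClosed Ω]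
  {C : Scheme.{u}} (f : C ⟶ Spec (CommRingCat.of K)) [QuasiCompact f] [QuasiSeparated f]

theorem hm_eq_self (hR : EtCoh.IsStrictlyHenselianLocalRing R) (ℓ : ℕ) (hℓ : ℓ.Prime)
    (hu : IsUnit (ℓ : R)) {ϖ : R} (hϖ : Irreducible ϖ) (q ν : ℕ) (σ : Ω ≃ₐ[K] Ω)
    (htriv : Hc (bm f (σ : Ω →ₐ[K] Ω)) (ZMod ℓ) q = AddMonoidHom.id _)
    (hσ : ∀ (a : ℕ) (z : Ω), z ^ (ℓ ^ a) = algebraMap R Ω ϖ → σ z = z)
    (x : HE f (EtCoh.const C (ZMod (ℓ ^ ν))) q Ω) :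
    hm f _ q (σ : Ω →ₐ[K] Ω) x = x := by
  have : Fact ℓ.Prime := ⟨hℓ⟩
  obtain ⟨L, hL, y, rfl⟩ := FieldLim.exists_of_finite f _ q Ω x
  obtain ⟨d, hd, hdU⟩ := Groth.Agent.Sga7.H481.Tame.exists_coprime_pow_mem R K Ω hR ℓ hu hϖ σ hσ
    L.fixingSubgroup (IntermediateField.fixingSubgroup_isOpen L)
  obtain ⟨k, hk⟩ := FieldConst.exists_iterate_fix f q ℓ hℓ.pos (σ : Ω →ₐ[K] Ω) htriv ν
    (hm f _ q L.val y)
  have h1 : Function.IsPeriodicPt (hm f _ q (σ : Ω →ₐ[K] Ω)) d (hm f _ q L.val y) := by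
    have h2 := hm_fix f _ q L y (σ ^ d) hdU
    rw [hm_pow] at h2
    exact h2
  have h2 : Function.IsPeriodicPt (hm f _ q (σ : Ω →ₐ[K] Ω)) (ℓ ^ k) (hm f _ q L.val y) := hk
  have h3 := h1.gcd h2
  rw [Nat.Coprime.gcd_eq_one (Nat.Coprime.pow_right k hd)] at h3
  exact h3

end Groth.Agent.Sga7.H810.Fix
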