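import Groth.Agent.Sga7.H744.CohConst
import Groth.Agent.Sga7.H744.Defs
import Groth.Agent.EtpbcB.StrictLoc
import Groth.Agent.Sga7.H810.Avg
import Groth.Agent.Sga7.H810.Fix
import Groth.Agent.Sga4h.TameFieldAlg
import Groth.Prelude.Def_Curve
import Mathlib.RingTheory.RegularLocalRing.Defs
import Mathlib.FieldTheory.IntermediateField.Adjoin.Basic

/-!
# Classes in `H^1(C_Ω, ℤ/ℓ^ν)` come from `C_{K(ϖ^{1/ℓ^s})}` when the Galois group acts trivially on
`H^1(C_Ω, ℤ/ℓ)` (subtask H744-FIN for S4063)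
-/

set_option autoImplicit false
universe u
open CategoryTheory CategoryTheory.Limits AlgebraicGeometry IsLocalRing
open Groth.Agent.Sga7.H744.CohConst Groth.Agent.Sga7.H744.Defs

namespace Groth.Agent.Sga7.H810.Fin

open FieldH

section Roots

variable (R K Ω : Type u) [CommRing R] [IsDomain R] [Field K] [Algebra R K] [IsFractionRing R K]
  [Field Ω] [Algebra K Ω] [Algebra R Ω] [IsScalarTower R K Ω]

omit [IsFractionRing R K] [Algebra R Ω] [IsScalarTower R K Ω] in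
/-- The elements of the field generated by all `ℓ`-power roots of `ϖ` lie in `K(y)` for one root `y`. -/
theorem exists_mem_adjoin (hR : EtCoh.IsStrictlyHenselianLocalRing R) (ℓ : ℕ)
    (hu : IsUnit (ℓ : R)) (p : Ω) (y : ℕ → Ω) (hp : p ≠ 0) (hy : ∀ s, y s ^ (ℓ ^ s) = p) (x : Ω)
    (hx : x ∈ IntermediateField.adjoin K {z : Ω | ∃ a : ℕ, z ^ (ℓ ^ a) = p}) :
    ∃ s : ℕ, ∀ s' : ℕ, s ≤ s' → x ∈ IntermediateField.adjoin K {y s'} := by
  induction hx using IntermediateField.adjoin_induction with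
  | mem z hz =>
    obtain ⟨a, ha⟩ := hz
    refine ⟨a, fun s' hs' => ?_⟩
    have h1 : (y s' ^ (ℓ ^ (s' - a))) ^ (ℓ ^ a) = p := by
      rw [← pow_mul, ← pow_add, Nat.sub_add_cancel hs', hy]
    have hw0 : y s' ^ (ℓ ^ (s' - a)) ≠ 0 := by
      intro h0
      rw [h0] at h1
      have hl : ℓ ^ a ≠ 0 := pow_ne_zero _ (by
        rintro rfl
        simp at hu)
      rw [zero_pow hl] at h1
      exact hp h1.symm
    obtain ⟨w, hw⟩ := Groth.Agent.Sga4h.TameFieldAlg.mem_of_pow_eq_one R K hR (ℓ ^ a)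
      (by rw [Nat.cast_pow]; exact hu.pow a) (z / y s' ^ (ℓ ^ (s' - a))) (by
        rw [div_pow, ha, h1, div_self hp])
    have h2 : z = algebraMap K Ω w * y s' ^ (ℓ ^ (s' - a)) := by
      rw [hw, div_mul_cancel₀ _ hw0]
    rw [h2]
    exact mul_mem (IntermediateField.algebraMap_mem _ _)
      (pow_mem (IntermediateField.mem_adjoin_simple_self K (y s')) _)
  | algebraMap z => exact ⟨0, fun s' _ => IntermediateField.algebraMap_mem _ _⟩
  | add z w _ _ h1 h2 =>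
    obtain ⟨s₁, h1⟩ := h1
    obtain ⟨s₂, h2⟩ := h2
    exact ⟨max s₁ s₂, fun s' hs' => add_mem (h1 s' ((le_max_left _ _).trans hs'))
      (h2 s' ((le_max_right _ _).trans hs'))⟩
  | inv z _ h1 =>
    obtain ⟨s₁, h1⟩ := h1
    exact ⟨s₁, fun s' hs' => inv_mem (h1 s' hs')⟩
  | mul z w _ _ h1 h2 =>
    obtain ⟨s₁, h1⟩ := h1
    obtain ⟨s₂, h2⟩ := h2
    exact ⟨max s₁ s₂, fun s' hs' => mul_mem (h1 s' ((le_max_left _ _).trans hs'))
      (h2 s' ((le_max_right _ _).trans hs'))⟩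

/-- A finite subextension of a union of intermediate fields lies in one of them. -/
theorem exists_algHom {K Ω : Type u} [Field K] [Field Ω] [Algebra K Ω] (L : IntermediateField K Ω)
    (Ks : ℕ → IntermediateField K Ω)
    (hL : ∀ x ∈ L, ∃ s : ℕ, ∀ s' : ℕ, s ≤ s' → x ∈ Ks s')
    (E : IntermediateField K L) [FiniteDimensional K E] :
    ∃ (s : ℕ) (j : E →ₐ[K] Ks s), (Ks s).val.comp j = L.val.comp E.val := by
  classical
  obtain ⟨S, hS⟩ : ∃ S : Finset L, IntermediateField.adjoin K (S : Set L) = E := by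
    have h1 : E.FG := E.fg_of_fg_toSubalgebra (Subalgebra.fg_of_fg_toSubmodule
      (Module.Finite.iff_fg.1 (inferInstanceAs (Module.Finite K E))))
    exact h1
  have h1 : ∃ s : ℕ, ∀ z ∈ S, (z : Ω) ∈ Ks s := by
    have h2 := fun z : L => hL z z.2
    choose s hs using h2
    exact ⟨S.sup s, fun z hz => hs z _ (Finset.le_sup hz)⟩
  obtain ⟨s, hs⟩ := h1
  have h3 : ∀ z : L, z ∈ E → (z : Ω) ∈ Ks s := by
    have h4 : E ≤ (Ks s).comap L.val := by
      rw [← hS, IntermediateField.adjoin_le_iff]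
      exact hs
    exact fun z hz => h4 hz
  let j : E →ₐ[K] Ks s :=
    { toFun := fun z => ⟨((z : L) : Ω), h3 z z.2⟩
      map_one' := rfl
      map_mul' := fun _ _ => rfl
      map_zero' := rfl
      map_add' := fun _ _ => rfl
      commutes' := fun _ => rfl }
  exact ⟨s, j, rfl⟩

end Roots

section Main

variable (R K Ω : Type u) [CommRing R] [IsDomain R] [IsDiscreteValuationRing R]
  [Field K] [Algebra R K] [IsFractionRing R K] [Field Ω] [Algebra K Ω] [Algebra R Ω]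
  [IsScalarTower R K Ω] [IsSepClosure K Ω]
  {C : Scheme.{u}} (f : C ⟶ Spec (CommRingCat.of K)) [QuasiCompact f] [QuasiSeparated f]

theorem fin_aux (hR : EtCoh.IsStrictlyHenselianLocalRing R) (ℓ : ℕ) (hℓ : ℓ.Prime)
    (hu : IsUnit (ℓ : R)) {ϖ : R} (hϖ : Irreducible ϖ) (q ν : ℕ)
    (htriv : ∀ σ : Ω ≃ₐ[K] Ω, Hc (bm f (σ : Ω →ₐ[K] Ω)) (ZMod ℓ) q = AddMonoidHom.id _)
    (x : HE f (EtCoh.const C (ZMod (ℓ ^ ν))) q Ω) :
    ∃ (s : ℕ) (y : Ω), y ^ (ℓ ^ s) = algebraMap R Ω ϖ ∧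
      ∃ x' : HE f (EtCoh.const C (ZMod (ℓ ^ ν))) q (IntermediateField.adjoin K {y}),
        hm f _ q (IntermediateField.adjoin K {y}).val x' = x := by
  have hgal : IsGalois K Ω := IsSepClosure.isGalois
  have hsc : IsSepClosed Ω := IsSepClosure.sep_closed K
  have : Fact ℓ.Prime := ⟨hℓ⟩
  have hp : algebraMap R Ω ϖ ≠ 0 := by
    rw [IsScalarTower.algebraMap_apply R K Ω, Ne, map_eq_zero_iff _ (algebraMap K Ω).injective,
      map_eq_zero_iff _ (IsFractionRing.injective R K)]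
    exact hϖ.ne_zero
  have hroot : ∀ a : ℕ, ∃ z : Ω, z ^ (ℓ ^ a) = algebraMap R Ω ϖ := by
    intro a
    have hne : NeZero ((ℓ ^ a : ℕ) : Ω) := by
      constructor
      have h1 : IsUnit ((ℓ : ℕ) : Ω) := by
        have := hu.map (algebraMap R Ω)
        rwa [map_natCast] at this
      rw [Nat.cast_pow]
      exact pow_ne_zero _ h1.ne_zero
    exact IsSepClosed.exists_pow_nat_eq (algebraMap R Ω ϖ) (ℓ ^ a)
  choose y hy using hroot
  let L : IntermediateField K Ω :=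
    IntermediateField.adjoin K {z : Ω | ∃ a : ℕ, z ^ (ℓ ^ a) = algebraMap R Ω ϖ}
  obtain ⟨t, ht⟩ := Avg.exists_descend f (EtCoh.const C (ZMod (ℓ ^ ν))) q L (ℓ ^ ν) x
    (FieldConst.nsmul_eq_zero f q ℓ ν Ω x) (fun M _ => by
      refine Nat.Coprime.pow_right ν ?_
      rw [Nat.coprime_comm, Nat.Prime.coprime_iff_not_dvd hℓ]
      exact Groth.Agent.Sga7.H481.Tame.not_dvd_finrank_adjoin_roots R K Ω hR ℓ hu hϖ M)
    (fun σ hσ => Fix.hm_eq_self R K Ω f hR ℓ hℓ hu hϖ q ν σ (htriv σ) (fun a z hz =>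
      (L.mem_fixingSubgroup_iff σ).1 hσ z (IntermediateField.subset_adjoin K _ ⟨a, hz⟩)) x)
  obtain ⟨E, hE, t₁, ht₁⟩ := FieldLim.exists_of_finite f (EtCoh.const C (ZMod (ℓ ^ ν))) q L t
  obtain ⟨s, j, hj⟩ := exists_algHom L (fun s => IntermediateField.adjoin K {y s})
    (exists_mem_adjoin R K Ω hR ℓ hu _ y hp hy) E
  refine ⟨s, y s, hy s, hm f _ q j t₁, ?_⟩
  rw [hm_comp, hj, ← ht, ← ht₁, hm_comp]

end Main

/-- (FIN) -/
theorem fin (R K Ω : Type u) [CommRing R] [IsDomain R] [IsDiscreteValuationRing R] [HenselianLocalRing R]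
    [IsSepClosed (ResidueField R)] [Field K] [Algebra R K] [IsFractionRing R K] [Field Ω] [Algebra K Ω] [IsSepClosure K Ω]
    (ℓ : ℕ) (hℓ : ℓ.Prime) (hℓp : (ℓ : ResidueField R) ≠ 0) {C : Scheme.{u}} (f : C ⟶ Spec (CommRingCat.of K))
    [QuasiCompact f] [QuasiSeparated f]
    (htriv : ∀ σ : Ω ≃ₐ[K] Ω, Hc (SGA7.twistAut Ω f σ) (ZMod ℓ) 1 = AddMonoidHom.id _) (ϖ : R) (hϖ : Irreducible ϖ)
    (ν : ℕ) (c : EtCoh.H (SGA7.bcField Ω f) (EtCoh.const _ (ZMod (ℓ ^ ν))) 1) :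
    ∃ (s : ℕ) (y : Ω), y ^ (ℓ ^ s) = algebraMap K Ω (algebraMap R K ϖ) ∧
      ∃ c' : EtCoh.H (SGA7.bcField (IntermediateField.adjoin K {y}) f) (EtCoh.const _ (ZMod (ℓ ^ ν))) 1,
        Hc (pullback.map f (Spec.map (CommRingCat.ofHom (algebraMap K Ω))) f
          (Spec.map (CommRingCat.ofHom (algebraMap K (IntermediateField.adjoin K {y})))) (𝟙 C)
          (Spec.map (CommRingCat.ofHom (algebraMap (IntermediateField.adjoin K {y}) Ω))) (𝟙 _) (by simp)
          (by rw [← Spec.map_comp]; rfl)) (ZMod (ℓ ^ ν)) 1 c' = c := by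
  let _ : Algebra R Ω := ((algebraMap K Ω).comp (algebraMap R K)).toAlgebra
  have : IsScalarTower R K Ω := IsScalarTower.of_algebraMap_eq fun _ => rfl
  have hR : EtCoh.IsStrictlyHenselianLocalRing R := ⟨inferInstance, inferInstance⟩
  have hu : IsUnit (ℓ : R) := Groth.Agent.Sga7.H481.Tame.isUnit_of_residue_ne_zero hℓp
  obtain ⟨x, rfl⟩ := FieldConst.kap_surjective f (ZMod (ℓ ^ ν)) 1 Ω c
  obtain ⟨s, y, hy, x', hx'⟩ := fin_aux R K Ω f hR ℓ hℓ hu hϖ 1 ν htriv x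
  refine ⟨s, y, hy, FieldConst.kap f (ZMod (ℓ ^ ν)) 1 _ x', ?_⟩
  rw [← hx']
  exact FieldConst.kap_hm f (ZMod (ℓ ^ ν)) 1 (IntermediateField.adjoin K {y}).val x'

end Groth.Agent.Sga7.H810.Fin
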