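import Groth.Agent.Sga7.H744.CohConst
import Groth.Agent.Sga7.H762.HConst
import Groth.Agent.EtpbcB.HRel

/-!
# Constant coefficients: naturality of `Hc` in the coefficients and comparison with `HpullVia`
-/

set_option autoImplicit false
universe u
open CategoryTheory CategoryTheory.Limits CategoryTheory.Abelian AlgebraicGeometry Opposite

namespace Groth.Agent.Sga7.H810.HcNat

open Groth.Agent.Sga7.H744.CohConst Groth.Agent.Sga7.H762.HConst
open Groth.Agent.EtpbcB.HRel Groth.Agent.Sga4B.ExtCmp Groth.Agent.Etcore.PullCoh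

theorem Hc_apply {X Y : Scheme.{u}} (f : X ⟶ Y) (M : Type) [AddCommGroup M] (q : ℕ)
    (x : EtCoh.H Y (EtCoh.const Y M) q) :
    Hc f M q x = (cmp (EtCoh.pull f) (EtCore.pullConst f ℤ).inv _ q x).comp
      (Ext.mk₀ (EtCore.pullConst f M).hom) (add_zero q) := rfl

theorem Hmap_apply (Y : Scheme.{u}) (n : ℕ) {A B : Type} [AddCommGroup A] [AddCommGroup B]
    (φ : A →+ B) (x : EtCoh.H Y (EtCoh.const Y A) n) :
    Hmap Y n φ x = x.comp (Ext.mk₀ ((constantSheaf Y.smallEtaleTopology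
      AddCommGrpCat.{u + 1}).map (ul φ))) (add_zero n) := rfl

theorem pullConst_nat {X Y : Scheme.{u}} (f : X ⟶ Y) {A B : Type} [AddCommGroup A]
    [AddCommGroup B] (φ : A →+ B) :
    (EtCoh.pull f).map ((constantSheaf Y.smallEtaleTopology AddCommGrpCat.{u + 1}).map (ul φ)) ≫
      (EtCore.pullConst f B).hom = (EtCore.pullConst f A).hom ≫
        (constantSheaf X.smallEtaleTopology AddCommGrpCat.{u + 1}).map (ul φ) :=
  (EtCore.pullConstIso f).hom.naturality (ul φ)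

/-- Naturality of the pullback in the coefficients. -/
theorem Hc_Hmap {X Y : Scheme.{u}} (f : X ⟶ Y) {A B : Type} [AddCommGroup A] [AddCommGroup B]
    (φ : A →+ B) (q : ℕ) (x : EtCoh.H Y (EtCoh.const Y A) q) :
    Hc f B q (Hmap Y q φ x) = Hmap X q φ (Hc f A q x) := by
  rw [Hc_apply, Hmap_apply, Hc_apply, Hmap_apply, cmp_mk₀, Ext.comp_assoc_of_third_deg_zero,
    Ext.comp_assoc_of_third_deg_zero, Ext.mk₀_comp_mk₀, Ext.mk₀_comp_mk₀, pullConst_nat]

/-- Comparison with the relative pullback. -/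
theorem Hc_HpullVia {X Y Z : Scheme.{u}} (f : X ⟶ Y) (t : Y ⟶ Z) (f₀ : X ⟶ Z) (w : f ≫ t = f₀)
    (M : Type) [AddCommGroup M] (q : ℕ)
    (x : EtCoh.H Y ((EtCoh.pull t).obj (EtCoh.const Z M)) q) :
    Hc f M q (x.comp (Ext.mk₀ (EtCore.pullConst t M).hom) (add_zero q)) =
      (EtCore.HpullVia f t f₀ w (EtCoh.const Z M) q x).comp
        (Ext.mk₀ (EtCore.pullConst f₀ M).hom) (add_zero q) := by
  rw [Hc_apply, HpullVia_eq, cmp_mk₀, Ext.comp_assoc_of_third_deg_zero,
    Ext.comp_assoc_of_third_deg_zero, Ext.mk₀_comp_mk₀, Ext.mk₀_comp_mk₀, pullConst_comp f t f₀ w]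

end Groth.Agent.Sga7.H810.HcNat
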